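import Cfsg.Agent.H78.Phan.Step

/-!
# The coset map on all unit vectors and the induction
-/

set_option autoImplicit false

namespace Cfsg.Agent.H78.Phan

open Matrix Cfsg

variable {F : Type*} [Field F] [Fintype F] {q : ℕ} {N : ℕ} {Γ : Type*} [Group Γ]

namespace Step

variable {π : Γ →* ↥(SU N F q)} {Am : Amal π} (S : Step Am)

theorem exists_toD {v : Fin N → F} (hv : S.Unit' v) : ∃ u ∈ Am.A S.a, S.D (act (π u) v) := by
  by_cases h1 : nm q (v S.p0) = 1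
  swap
  · exact ⟨1, one_mem _, by rw [map_one, act_one]; exact ⟨hv, Or.inl h1⟩⟩
  obtain ⟨g, hg, hgn⟩ : ∃ g ∈ (GI {S.p0, S.p1} : Subgroup ↥(SU N F q)), nm q (act g v S.p0) ≠ 1 := by
    by_cases hS : nm q (v S.p0) + nm q (v S.p1) = 0
    · obtain ⟨c, hc0, hc1, -⟩ := exists_nm_avoid S.hF S.hq (1 : F) 1
      obtain ⟨g, hg, e, -, -⟩ := exists_iso_move S.hF S.p0 S.p1 S.ne01 hc0
        (fun e => by rw [e, nm_zero S.hF] at h1; exact zero_ne_one h1) hS
      exact ⟨g, hg, by rw [e]; exact hc1⟩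
    · obtain ⟨c, hc⟩ := exists_nm S.hF (μ := nm q (v S.p0) + nm q (v S.p1))
        (by rw [H3.add_pow_q S.hF, nm_pow_q S.hF, nm_pow_q S.hF])
      obtain ⟨g, hg, e, -, -⟩ := exists_pair_move S.hF S.p0 S.p1 S.ne01 (a := 0) (b := c) hS
        (by rw [nm_zero S.hF, zero_add, hc])
      exact ⟨g, hg, by rw [e, nm_zero S.hF]; exact zero_ne_one⟩
  rw [Iv_pair (a := S.a) S.p0 S.p1 rfl rfl] at hg
  obtain ⟨u, hu, rfl⟩ := Am.exists_A S.hN2 hg
  exact ⟨u, hu, S.unit_act (S.map_A_I hu) hv, Or.inl hgn⟩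

open scoped Classical in
/-- The coset of a unit vector. -/
noncomputable def cv (v : Fin N → F) : Γ ⧸ S.T1 :=
  if h : ∃ u ∈ Am.A S.a, S.D (act (π u) v) then h.choose⁻¹ • S.c0 (act (π h.choose) v)
  else ((1 : Γ) : Γ ⧸ S.T1)

theorem cv_eq {v : Fin N → F} {u : Γ} (hu : u ∈ Am.A S.a) (hD : S.D (act (π u) v)) :
    S.cv v = u⁻¹ • S.c0 (act (π u) v) := by
  have h' : ∃ u ∈ Am.A S.a, S.D (act (π u) v) := ⟨u, hu, hD⟩
  rw [cv, dif_pos h']
  obtain ⟨h1, h2⟩ := h'.choose_spec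
  have hm : act (π (u * h'.choose⁻¹)) (act (π h'.choose) v) = act (π u) v := by
    rw [← act_mul, ← map_mul, inv_mul_cancel_right]
  obtain ⟨-, h3⟩ := S.eqv_A (mul_mem hu (inv_mem h1)) h2 (hm.symm ▸ hD)
  rw [hm] at h3
  rw [h3, smul_smul, inv_mul_cancel_left]

theorem cv_D {v : Fin N → F} (hD : S.D v) : S.cv v = S.c0 v := by
  rw [S.cv_eq (u := 1) (one_mem _) (by rwa [map_one, act_one]), map_one, act_one, inv_one, one_smul]

theorem cv_A {u : Γ} (hu : u ∈ Am.A S.a) {v : Fin N → F} (hv : S.Unit' v) :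
    S.cv (act (π u) v) = u • S.cv v := by
  obtain ⟨w, hw, hD⟩ := S.exists_toD hv
  have hm : act (π (w * u⁻¹)) (act (π u) v) = act (π w) v := by
    rw [← act_mul, ← map_mul, inv_mul_cancel_right]
  rw [S.cv_eq (mul_mem hw (inv_mem hu)) (hm.symm ▸ hD), hm, S.cv_eq hw hD, _root_.mul_inv_rev, inv_inv, smul_smul]

theorem cv_T2 {t : Γ} (ht : t ∈ Am.T (S.a + 2) S.b) {v : Fin N → F} (hv : S.Unit' v) :
    S.cv (act (π t) v) = t • S.cv v := by
  obtain ⟨w, hw, hD⟩ := S.exists_toD hv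
  have hm : act (π w) (act (π t) v) = act (π t) (act (π w) v) := by
    rw [← act_mul, ← map_mul, (S.A_comm_T2 hw ht).eq, map_mul, act_mul]
  obtain ⟨hD', h3⟩ := S.eqv_T1 (S.T2_le ht) hD
  rw [S.cv_eq hw (hm.symm ▸ hD'), hm, h3, S.cv_eq hw hD, smul_smul, smul_smul,
    ((S.A_comm_T2 (inv_mem hw) ht)).eq]

theorem cv_A1_half {s : Γ} (hs : s ∈ Am.A (S.a + 1)) {v : Fin N → F} (hv : S.Unit' v)
    (h0 : nm q (v S.p0) = 1) (hg : nm q (act (π s) v S.p1) ≠ 1) :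
    S.cv (act (π s) v) = s • S.cv v := by
  obtain ⟨s', -, u0, hu0, -, hu0'⟩ := S.exists_swaps
  set σ := act (π s) (ev S.p1) S.p1 with hσ
  obtain ⟨c, hc0, hc1, hc2⟩ := exists_nm_avoid S.hF S.hq (1 : F) (nm q σ)⁻¹
  obtain ⟨x0, hx0⟩ := exists_nm S.hF (μ := 1 - nm q c) (by
    rw [show (1 - nm q c) ^ q = 1 ^ q - nm q c ^ q from map_sub (H3.conjQ S.hF) _ _, one_pow, nm_pow_q S.hF])
  have hC0 : nm q c ≠ 0 := mt (nm_eq_zero S.hF).1 hc0
  have hx00 : x0 ≠ 0 := fun e => hc1 (by rw [e, nm_zero S.hF] at hx0; linear_combination hx0)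
  have hv0 : v S.p0 ≠ 0 := fun e => by rw [e, nm_zero S.hF] at h0; exact zero_ne_one h0
  obtain ⟨θ, hθ, hne⟩ : ∃ θ : F, nm q θ = 1 ∧
      nm q (θ * x0 * v S.p0 - c ^ q * v S.p1) ≠ 1 := by
    by_cases hv1 : v S.p1 = 0
    · refine ⟨1, nm_one, ?_⟩
      rw [hv1, mul_zero, sub_zero, one_mul, nm_mul, hx0, h0, mul_one]
      exact fun e => hC0 (by linear_combination -e)
    · obtain ⟨θ, hθ, hne⟩ := exists_theta S.hF S.hq
        (K := x0 * v S.p0 * c * v S.p1 ^ q)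
        (mul_ne_zero (mul_ne_zero (mul_ne_zero hx00 hv0) hc0) (pow_ne_zero _ hv1))
        (1 - nm q c + nm q c * nm q (v S.p1) - 1)
      refine ⟨θ, hθ, fun e => hne ?_⟩
      simp only [nm] at hθ h0 hx0 e ⊢
      have hsub : ∀ r t : F, (r - t) ^ q = r ^ q - t ^ q := fun r t => map_sub (H3.conjQ S.hF) r t
      rw [hsub, mul_pow, mul_pow, mul_pow, H3.pow_q_pow_q S.hF] at e
      rw [mul_pow, mul_pow, mul_pow, mul_pow, H3.pow_q_pow_q S.hF]
      linear_combination -e + (x0 * x0 ^ q * (v S.p0 * v S.p0 ^ q)) * hθ + (x0 * x0 ^ q) * h0 + hx0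
  obtain ⟨u, hu, hact⟩ := S.exists_u (x := θ * x0) (y := c) (by rw [nm_mul, hθ, one_mul, hx0, sub_add_cancel])
  have huD : S.D (act (π u) v) := ⟨S.unit_act (S.map_A_I hu) hv, Or.inl (by rw [(hact v).1]; exact hne)⟩
  set k := u0⁻¹ * s * u⁻¹ with hk
  have hkV : k ∈ Am.V S.a :=
    mul_mem (mul_mem (inv_mem (S.A_le_V hu0)) (S.A1_le_V hs)) (inv_mem (S.A_le_V hu))
  have hkx : act (π k) (act (π u) v) = act (π u0⁻¹) (act (π s) v) := by
    rw [← act_mul, ← act_mul, ← map_mul, ← map_mul, hk]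
    congr 2
    group
  have hsvU := S.unit_act (S.map_T1_I (S.A1_le hs)) hv
  have hkxD : S.D (act (π k) (act (π u) v)) := by
    rw [hkx]
    exact ⟨S.unit_act (S.map_A_I (inv_mem hu0)) hsvU, Or.inl (by rw [(hu0' _).1]; exact hg)⟩
  have hinv : act (π u⁻¹) S.e = (θ * x0) ^ q • S.e - c • ev S.p1 := by
    rw [map_inv]
    refine act_inv_eq (funext fun l => ?_)
    set w := (θ * x0) ^ q • S.e - c • (ev S.p1 : Fin N → F) with hw
    have w0 : w S.p0 = (θ * x0) ^ q := by simp [hw, ev, S.ne01]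
    have w1 : w S.p1 = -c := by simp [hw, ev, S.ne01.symm]
    have hn : θ * x0 * (θ * x0) ^ q + c * c ^ q = 1 := by
      have := congrArg (· * 1) hx0
      simp only [nm] at hθ hx0 ⊢
      rw [mul_pow]
      linear_combination (x0 * x0 ^ q) * hθ + hx0
    by_cases hl0 : l = S.p0
    · subst hl0
      rw [(hact w).1, w0, w1]
      simp only [ev, Pi.single_eq_same]
      linear_combination hn
    by_cases hl1 : l = S.p1
    · subst hl1
      rw [(hact w).2, w0, w1]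
      simp only [ev, Pi.single_eq_of_ne hl0]
      ring
    · rw [S.A_coord hu w hl0 hl1]
      simp [hw, ev, hl0, hl1]
  have hkeD : S.D (act (π k) S.e) := by
    have hU : S.Unit' (act (π k) S.e) :=
      S.unit_act (GI_mono (Iv_mono le_rfl (by have := S.hab; omega)) (Am.map_V_mem S.hN3 hkV)) S.D_e.1
    refine ⟨hU, Or.inl ?_⟩
    rw [hk, map_mul, map_mul, act_mul, act_mul, hinv, (hu0' _).1, sub_eq_add_neg, ← neg_smul, act_add,
      act_smul, act_smul, S.T1_fix_e (S.A1_le hs), Pi.add_apply, Pi.smul_apply, Pi.smul_apply, ← hσ]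
    simp only [smul_eq_mul, ev, Pi.single_eq_of_ne S.ne01.symm, mul_zero, zero_add]
    rw [neg_mul, nm_neg S.hF, nm_mul]
    intro e
    exact hc2 (eq_inv_of_mul_eq_one_left e)
  obtain ⟨-, h3⟩ := S.eqv_V hkV hkeD huD hkxD
  rw [hkx] at h3 hkxD
  rw [S.cv_eq (inv_mem hu0) hkxD, h3, S.cv_eq hu huD, smul_smul, smul_smul, inv_inv, hk]
  congr 1
  group

theorem cv_A1 {s : Γ} (hs : s ∈ Am.A (S.a + 1)) {v : Fin N → F} (hv : S.Unit' v) :
    S.cv (act (π s) v) = s • S.cv v := by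
  by_cases hD : S.D v
  · obtain ⟨hD', h⟩ := S.eqv_T1 (S.A1_le hs) hD
    rw [S.cv_D hD', h, S.cv_D hD]
  have h0 : nm q (v S.p0) = 1 := by_contra fun h => hD ⟨hv, Or.inl h⟩
  have hU : ∀ {r : Γ}, r ∈ Am.A (S.a + 1) → S.Unit' (act (π r) v) := fun hr =>
    S.unit_act (S.map_T1_I (S.A1_le hr)) hv
  have hp0 : ∀ {r : Γ}, r ∈ Am.A (S.a + 1) → nm q (act (π r) v S.p0) = 1 := fun hr => by
    rw [act_coord S.hF (S.map_T1 (S.A1_le hr)) v S.p0_notMem]; exact h0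
  -- the backward direction
  have back : ∀ {r : Γ}, r ∈ Am.A (S.a + 1) → nm q (act (π r) v S.p1) ≠ 1 →
      S.cv (act (π r) v) = r • S.cv v → ∀ {r' : Γ}, r' ∈ Am.A (S.a + 1) → S.cv (act (π r') v) = r' • S.cv v := by
    intro r hr hrn hreq r' hr'
    have hm : act (π (r * r'⁻¹)) (act (π r') v) = act (π r) v := by
      rw [← act_mul, ← map_mul, inv_mul_cancel_right]
    have h := S.cv_A1_half (mul_mem hr (inv_mem hr')) (hU hr') (hp0 hr') (by rw [hm]; exact hrn)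
    rw [hm, hreq, mul_smul, smul_left_cancel_iff, eq_inv_smul_iff] at h
    exact h.symm
  obtain ⟨g, hg, hgn⟩ : ∃ g ∈ (GI {S.p1, S.p2} : Subgroup ↥(SU N F q)), nm q (act g v S.p1) ≠ 1 := by
    by_cases h1 : nm q (v S.p1) = 1
    swap
    · exact ⟨1, one_mem _, by rwa [act_one]⟩
    by_cases hS : nm q (v S.p1) + nm q (v S.p2) = 0
    · obtain ⟨c, hc0, hc1, -⟩ := exists_nm_avoid S.hF S.hq (1 : F) 1
      obtain ⟨g, hg, e, -, -⟩ := exists_iso_move S.hF S.p1 S.p2 S.ne12 hc0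
        (fun e => by rw [e, nm_zero S.hF] at h1; exact zero_ne_one h1) hS
      exact ⟨g, hg, by rw [e]; exact hc1⟩
    · obtain ⟨c, hc⟩ := exists_nm S.hF (μ := nm q (v S.p1) + nm q (v S.p2))
        (by rw [H3.add_pow_q S.hF, nm_pow_q S.hF, nm_pow_q S.hF])
      obtain ⟨g, hg, e, -, -⟩ := exists_pair_move S.hF S.p1 S.p2 S.ne12 (a := 0) (b := c) hS
        (by rw [nm_zero S.hF, zero_add, hc])
      exact ⟨g, hg, by rw [e, nm_zero S.hF]; exact zero_ne_one⟩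
  rw [Iv_pair (a := S.a + 1) S.p1 S.p2 rfl rfl] at hg
  obtain ⟨r, hr, rfl⟩ := Am.exists_A (a := S.a + 1) S.hN3 hg
  exact back hr hgn (S.cv_A1_half hr hv h0 hgn) hs

/-- The elements for which the coset map is equivariant. -/
def EqG : Subgroup Γ where
  carrier := {g | π g ∈ GI (Iv S.a S.b) ∧ ∀ v, S.Unit' v → S.cv (act (π g) v) = g • S.cv v}
  one_mem' := ⟨by rw [map_one]; exact one_mem _, fun v _ => by rw [map_one, act_one, one_smul]⟩
  mul_mem' := fun {g h} hg hh => ⟨by rw [map_mul]; exact mul_mem hg.1 hh.1, fun v hv => by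
    rw [map_mul, act_mul, hg.2 _ (S.unit_act hh.1 hv), hh.2 v hv, mul_smul]⟩
  inv_mem' := fun {g} hg => ⟨by rw [map_inv]; exact inv_mem hg.1, fun v hv => by
    have h := hg.2 _ (S.unit_act (inv_mem hg.1) hv)
    rw [act_act_inv] at h
    rw [map_inv, eq_inv_smul_iff]
    exact h.symm⟩

theorem T_le_EqG : Am.T S.a S.b ≤ S.EqG := by
  refine Am.T_le fun k h1 h2 x hx => ?_
  refine ⟨GI_mono (Iv_mono h1 h2) (Am.map_A_mem (h2.trans S.hbN) hx), fun v hv => ?_⟩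
  rcases (show k = S.a ∨ k = S.a + 1 ∨ S.a + 2 ≤ k by omega) with rfl | rfl | h
  · exact S.cv_A hx hv
  · exact S.cv_A1 hx hv
  · exact S.cv_T2 (Am.A_le_T ⟨h, h2⟩ hx) hv

theorem T1_le_T : S.T1 ≤ Am.T S.a S.b := Am.T_le fun _ h1 h2 => Am.A_le_T ⟨by omega, h2⟩

theorem A_le_T' : Am.A S.a ≤ Am.T S.a S.b := Am.A_le_T ⟨le_rfl, by have := S.hab; omega⟩

theorem good : Am.Good S.a S.b := by
  have hstab : ∀ g ∈ Am.T S.a S.b, ∀ i : Fin N, (i : ℕ) = S.a → act (π g) (ev i) = ev i → g ∈ S.T1 := by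
    intro g hg i hi he
    have hi0 : i = S.p0 := Fin.ext hi
    subst hi0
    have h := (S.T_le_EqG hg).2 S.e S.D_e.1
    rw [show act (π g) S.e = S.e from he, S.cv_D S.D_e, S.c0_e, MulAction.Quotient.smul_coe, smul_eq_mul,
      mul_one, QuotientGroup.eq, inv_one, one_mul] at h
    exact h
  refine ⟨fun x hx h1 => S.ih.inj x (hstab x hx S.p0 rfl (by rw [h1, act_one])) h1,
    le_antisymm (Subgroup.map_le_iff_le_comap.2 fun x hx => (S.T_le_EqG hx).1) fun g hg => ?_, hstab⟩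
  obtain ⟨u, hu, hD⟩ := S.exists_toD (S.unit_act hg S.D_e.1)
  obtain ⟨s, w, hs, hw, he⟩ := S.exists_rep hD
  have hm : (π (s * w))⁻¹ * (π u * g) ∈ GI (Iv (S.a + 1) S.b) := by
    refine mem_GI_fix (i := S.p0) (mul_mem (inv_mem ?_) (mul_mem (S.map_A_I hu) hg)) rfl ?_
    · rw [map_mul]; exact mul_mem (S.map_T1_I hs) (S.map_A_I hw)
    · rw [act_mul, act_mul]; exact act_inv_eq he
  obtain ⟨t, ht, hπ⟩ := S.exists_T1 hm
  refine ⟨u⁻¹ * (s * w * t), mul_mem (inv_mem (S.A_le_T' hu))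
    (mul_mem (mul_mem (S.T1_le_T hs) (S.A_le_T' hw)) (S.T1_le_T ht)), ?_⟩
  rw [map_mul, map_inv, map_mul, hπ]
  group

end Step

namespace Amal

variable {π : Γ →* ↥(SU N F q)} (Am : Amal π)

theorem good_all (hF : Fintype.card F = q ^ 2) (hq : 4 ≤ q) :
    ∀ d a : ℕ, a + (d + 3) ≤ N → Am.Good a (a + (d + 3)) := by
  intro d
  induction d with
  | zero => exact fun a ha => Am.good_three hF hq ha
  | succ d ih =>
    intro a ha
    have h : a + (d + 1 + 3) = a + 1 + (d + 3) := by omega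
    exact Step.good ({ a := a, b := a + (d + 1 + 3), hab := by omega, hbN := ha, hF := hF, hq := hq,
                       ih := by rw [h]; exact ih (a + 1) (by omega) } : Step Am)

/-- The completion: a splitting onto the subgroup generated by the lifts. -/
theorem exists_section (hF : Fintype.card F = q ^ 2) (hq : 4 ≤ q) (hN : 3 ≤ N) :
    ∃ f : ↥(SU N F q) →* Γ, (∀ g, π (f g) = g) ∧ f.range = Am.T 0 N := by
  obtain ⟨d, rfl⟩ : ∃ d, N = 0 + (d + 3) := ⟨N - 3, by omega⟩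
  have G := Am.good_all hF hq d 0 le_rfl
  set T := Am.T 0 (0 + (d + 3))
  have hb : Function.Bijective (π.comp T.subtype) := by
    refine ⟨fun x y h => Subtype.ext (G.inj.eq x.2 y.2 h), fun g => ?_⟩
    have hg : g ∈ T.map π := by
      rw [G.map, show (Iv 0 (0 + (d + 3)) : Set (Fin (0 + (d + 3)))) = Set.univ from
        Set.eq_univ_of_forall fun k => ⟨Nat.zero_le _, k.2⟩, GI_univ]
      exact Subgroup.mem_top g
    obtain ⟨x, hx, rfl⟩ := hg
    exact ⟨⟨x, hx⟩, rfl⟩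
  let E := MulEquiv.ofBijective _ hb
  refine ⟨T.subtype.comp E.symm.toMonoidHom, fun g => E.apply_symm_apply g, ?_⟩
  rw [MonoidHom.range_comp, MonoidHom.range_eq_top.2 E.symm.surjective, ← MonoidHom.range_eq_map,
    Subgroup.range_subtype]

end Amal

end Cfsg.Agent.H78.Phan
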