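import Cfsg.Agent.H78.Phan.Core

/-!
# The coset section on the vectors off the singular cone
-/

set_option autoImplicit false

namespace Cfsg.Agent.H78.Phan

open Matrix Cfsg

variable {F : Type*} [Field F] [Fintype F] {q : ℕ} {N : ℕ} {Γ : Type*} [Group Γ]

/-- The data of the induction step. -/
structure Step {π : Γ →* ↥(SU N F q)} (Am : Amal π) where
  a : ℕ
  b : ℕ
  hab : a + 4 ≤ b
  hbN : b ≤ N
  hF : Fintype.card F = q ^ 2
  hq : 4 ≤ q
  ih : Am.Good (a + 1) b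

namespace Step

variable {π : Γ →* ↥(SU N F q)} {Am : Amal π} (S : Step Am)

/-- The first coordinate. -/
def p0 : Fin N := ⟨S.a, by have := S.hab; have := S.hbN; omega⟩

/-- The second coordinate. -/
def p1 : Fin N := ⟨S.a + 1, by have := S.hab; have := S.hbN; omega⟩

/-- The third coordinate. -/
def p2 : Fin N := ⟨S.a + 2, by have := S.hab; have := S.hbN; omega⟩

theorem ne01 : S.p0 ≠ S.p1 := fun e => by simp [p0, p1, Fin.ext_iff] at e

theorem ne02 : S.p0 ≠ S.p2 := fun e => by simp [p0, p2, Fin.ext_iff] at e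

theorem ne12 : S.p1 ≠ S.p2 := fun e => by simp [p1, p2, Fin.ext_iff] at e

theorem p0_notMem {c : ℕ} : S.p0 ∉ (Iv (S.a + 1) c : Set (Fin N)) := fun h => by
  have := h.1; simp [p0] at this

theorem p0_notMem2 {c : ℕ} : S.p0 ∉ (Iv (S.a + 2) c : Set (Fin N)) := fun h => by
  have := h.1; simp [p0] at this

theorem p1_notMem2 {c : ℕ} : S.p1 ∉ (Iv (S.a + 2) c : Set (Fin N)) := fun h => by
  have := h.1; simp [p1] at this

theorem p2_notMem : S.p2 ∉ (Iv S.a (S.a + 2) : Set (Fin N)) := fun h => by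
  have := h.2; simp [p2] at this

theorem notMem_pair {k : Fin N} (h0 : k ≠ S.p0) (h1 : k ≠ S.p1) : k ∉ (Iv S.a (S.a + 2) : Set (Fin N)) := fun h => by
  have := h.1; have := h.2; simp only [p0, p1, ne_eq, Fin.ext_iff] at h0 h1; omega

/-- The first vector. -/
abbrev e : Fin N → F := ev S.p0

/-- The lift of the stabiliser. -/
abbrev T1 : Subgroup Γ := Am.T (S.a + 1) S.b

theorem hN2 : S.a + 2 ≤ N := by have := S.hab; have := S.hbN; omega

theorem hN3 : S.a + 3 ≤ N := by have := S.hab; have := S.hbN; omega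

theorem map_T1 {s : Γ} (hs : s ∈ S.T1) : π s ∈ GI (Iv (S.a + 1) S.b) := S.ih.map ▸ Subgroup.mem_map_of_mem π hs

theorem exists_T1 {g : ↥(SU N F q)} (hg : g ∈ GI (Iv (S.a + 1) S.b)) : ∃ s ∈ S.T1, π s = g := by
  rwa [← S.ih.map, Subgroup.mem_map] at hg

theorem T1_fix_e {s : Γ} (hs : s ∈ S.T1) : act (π s) S.e = S.e := S.map_T1 hs S.p0 S.p0_notMem

theorem A_comm_T2 {u t : Γ} (hu : u ∈ Am.A S.a) (ht : t ∈ Am.T (S.a + 2) S.b) : Commute u t := by
  have : Am.T (S.a + 2) S.b ≤ Subgroup.centralizer {u} := Am.T_le fun k h1 h2 x hx => by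
    rw [Subgroup.mem_centralizer_singleton_iff]
    exact (Am.comm S.a k h1 (h2.trans S.hbN) u hu x hx).eq.symm
  exact ((Subgroup.mem_centralizer_singleton_iff.1 (this ht)).symm : u * t = t * u)

theorem A1_le : Am.A (S.a + 1) ≤ S.T1 := Am.A_le_T ⟨le_rfl, by have := S.hab; omega⟩

theorem T2_le : Am.T (S.a + 2) S.b ≤ S.T1 := Am.T_le fun k h1 h2 => Am.A_le_T ⟨by omega, h2⟩

theorem A_le_V : Am.A S.a ≤ Am.V S.a := (Am.A_le S.a S.hN3).1

theorem A1_le_V : Am.A (S.a + 1) ≤ Am.V S.a := (Am.A_le S.a S.hN3).2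

theorem mem_A1_of_fix {k : Γ} (hk : k ∈ Am.V S.a) (he : act (π k) S.e = S.e) : k ∈ Am.A (S.a + 1) :=
  Am.mem_A_of_fix S.hN3 hk rfl he

theorem exists_T2 {g : ↥(SU N F q)} (hg : g ∈ GI (Iv (S.a + 2) S.b)) :
    ∃ t ∈ Am.T (S.a + 2) S.b, π t = g := by
  obtain ⟨t, ht, rfl⟩ := S.exists_T1 (GI_mono (Iv_mono (by omega) le_rfl) hg)
  exact ⟨t, S.ih.stab t ht S.p1 rfl (hg S.p1 S.p1_notMem2), rfl⟩

theorem map_T2 {t : Γ} (ht : t ∈ Am.T (S.a + 2) S.b) : π t ∈ GI (Iv (S.a + 2) S.b) := by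
  have hT : Am.T (S.a + 2) S.b ≤ (GI (Iv (S.a + 2) S.b)).comap π := Am.T_le fun k h1 h2 x hx =>
    GI_mono (Iv_mono h1 h2) (Am.map_A_mem (h2.trans S.hbN) hx)
  exact hT ht

theorem exists_u {x y : F} (hxy : nm q x + nm q y = 1) :
    ∃ u ∈ Am.A S.a, ∀ v, act (π u) v S.p0 = x * v S.p0 - y ^ q * v S.p1 ∧
      act (π u) v S.p1 = y * v S.p0 + x ^ q * v S.p1 := by
  have h := mv_mem (N := N) S.hF S.p0 S.p1 S.ne01 x y hxy
  rw [Iv_pair (a := S.a) S.p0 S.p1 rfl rfl] at h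
  obtain ⟨u, hu, hπ⟩ := Am.exists_A S.hN2 h
  exact ⟨u, hu, fun v => by
    obtain ⟨e1, e2, -⟩ := act_mv S.hF S.p0 S.p1 S.ne01 x y hxy v
    rw [hπ]; exact ⟨e1, e2⟩⟩

theorem A_coord {u : Γ} (hu : u ∈ Am.A S.a) (v : Fin N → F) {k : Fin N} (h0 : k ≠ S.p0) (h1 : k ≠ S.p1) :
    act (π u) v k = v k := act_coord S.hF (Am.map_A_mem S.hN2 hu) v (S.notMem_pair h0 h1)

theorem plane_coord {u : Γ} (hu : u ∈ Am.A S.a) {k : Fin N} (h0 : k ≠ S.p0) (h1 : k ≠ S.p1) :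
    act (π u) S.e k = 0 := by
  rw [S.A_coord hu S.e h0 h1]; simp [ev, h0]

theorem pair_expand {v : Fin N → F} (h : ∀ k, k ≠ S.p0 → k ≠ S.p1 → v k = 0) :
    v = v S.p0 • S.e + v S.p1 • ev S.p1 := funext fun k => by
  by_cases hk : k = S.p0
  · subst hk; simp [ev, S.ne01]
  · by_cases hk1 : k = S.p1
    · subst hk1; simp [ev, hk]
    · simp [ev, hk, hk1, h k hk hk1]

theorem single_expand {v : Fin N → F} (h : ∀ k, k ≠ S.p0 → v k = 0) : v = v S.p0 • S.e := funext fun k => by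
  by_cases hk : k = S.p0
  · subst hk; simp [ev]
  · simp [ev, hk, h k hk]

/-- The unit vectors of the step. -/
def Unit' (v : Fin N → F) : Prop := Supp (Iv S.a S.b) v ∧ hermForm N F q v v = 1

/-- The vectors with a representative. -/
def D (v : Fin N → F) : Prop := S.Unit' v ∧ (nm q (v S.p0) ≠ 1 ∨ ∀ k, k ≠ S.p0 → v k = 0)

theorem unit_act {g : ↥(SU N F q)} (hg : g ∈ GI (Iv S.a S.b)) {v : Fin N → F} (hv : S.Unit' v) :
    S.Unit' (act g v) := ⟨act_supp S.hF hg hv.1, (herm_act g v v).trans hv.2⟩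

theorem map_A_I {u : Γ} (hu : u ∈ Am.A S.a) : π u ∈ GI (Iv S.a S.b) :=
  GI_mono (Iv_mono le_rfl (by have := S.hab; omega)) (Am.map_A_mem S.hN2 hu)

theorem map_T1_I {s : Γ} (hs : s ∈ S.T1) : π s ∈ GI (Iv S.a S.b) :=
  GI_mono (Iv_mono (by omega) le_rfl) (S.map_T1 hs)

theorem D_T1 {s : Γ} (hs : s ∈ S.T1) {v : Fin N → F} (hv : S.D v) : S.D (act (π s) v) := by
  refine ⟨S.unit_act (S.map_T1_I hs) hv.1, ?_⟩
  rw [act_coord S.hF (S.map_T1 hs) v S.p0_notMem]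
  refine hv.2.imp id fun h0 k hk => ?_
  rw [S.single_expand h0, act_smul, S.T1_fix_e hs]
  simp [ev, hk]

/-- A representative of a vector. -/
def Rep (v : Fin N → F) (s u : Γ) : Prop := s ∈ S.T1 ∧ u ∈ Am.A S.a ∧ act (π (s * u)) S.e = v

theorem rep_unique {v : Fin N → F} {s1 u1 s2 u2 : Γ} (h1 : S.Rep v s1 u1) (h2 : S.Rep v s2 u2) :
    ((s1 * u1 : Γ) : Γ ⧸ S.T1) = ((s2 * u2 : Γ) : Γ ⧸ S.T1) := by
  obtain ⟨hs1, hu1, e1⟩ := h1
  obtain ⟨hs2, hu2, e2⟩ := h2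
  symm
  rw [QuotientGroup.eq, show (s2 * u2)⁻¹ * (s1 * u1) = u2⁻¹ * (s2⁻¹ * s1) * u1 by group]
  set d := s2⁻¹ * s1 with hd
  have hdT : d ∈ S.T1 := mul_mem (inv_mem hs2) hs1
  set p := act (π u1) S.e with hp
  set p' := act (π u2) S.e with hp'
  have hdp : act (π d) p = p' := by
    rw [hd, map_mul, map_inv, act_mul]
    refine act_inv_eq ?_
    rw [map_mul, act_mul] at e1 e2
    rw [hp', hp, e1, e2]
  have hp0 : p' S.p0 = p S.p0 := by rw [← hdp, act_coord S.hF (S.map_T1 hdT) p S.p0_notMem]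
  have hpe : p = p S.p0 • S.e + p S.p1 • ev S.p1 := S.pair_expand fun k => S.plane_coord hu1
  have hpe' : p' = p' S.p0 • S.e + p' S.p1 • ev S.p1 := S.pair_expand fun k => S.plane_coord hu2
  by_cases hb : p S.p1 = 0
  · rw [hb, zero_smul, add_zero] at hpe
    have hpp : p' = p := by rw [← hdp, hpe, act_smul, S.T1_fix_e hdT]
    have hu12 : u1 = u2 := by
      refine (Am.injV S.a S.hN3).eq (S.A_le_V hu1) (S.A_le_V hu2) ?_
      have hone := eq_one_of_GI_singleton S.hF (i := S.p1) (g := (π u2)⁻¹ * π u1) (fun k hk => by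
        by_cases hk0 : k = S.p0
        · subst hk0
          rw [act_mul]
          exact act_inv_eq (hp' ▸ hp ▸ hpp)
        · exact (mul_mem (inv_mem (Am.map_A_mem S.hN2 hu2)) (Am.map_A_mem S.hN2 hu1)) k
            (S.notMem_pair hk0 (by simpa using hk)))
      rw [inv_mul_eq_one] at hone
      exact hone.symm
    subst hu12
    suffices S.T1 ≤ S.T1.comap (MulAut.conj u1⁻¹).toMonoidHom by
      simpa using this hdT
    refine Am.T_le fun k h1 h2 x hx => ?_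
    show u1⁻¹ * x * u1⁻¹⁻¹ ∈ S.T1
    rw [inv_inv]
    by_cases hk : k = S.a + 1
    · subst hk
      refine S.A1_le (S.mem_A1_of_fix
        (mul_mem (mul_mem (inv_mem (S.A_le_V hu1)) (S.A1_le_V hx)) (S.A_le_V hu1)) ?_)
      rw [map_mul, map_mul, map_inv, act_mul, act_mul, ← hp, hpe, act_smul, S.T1_fix_e (S.A1_le hx), ← hpe]
      exact act_inv_eq hp.symm
    · rw [mul_assoc, ← (Am.comm S.a k (by omega) (h2.trans S.hbN) u1 hu1 x hx).eq, inv_mul_cancel_left]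
      exact Am.A_le_T ⟨h1, h2⟩ hx
  · set β := p S.p1 with hβ
    set β' := p' S.p1 with hβ'
    have hd1 : act (π d) (ev S.p1) = (β' / β) • ev S.p1 := by
      have h := hdp
      rw [hpe, act_add, act_smul, act_smul, S.T1_fix_e hdT, hpe', hp0] at h
      rw [add_left_cancel_iff, ← eq_inv_smul_iff₀ hb, smul_smul, inv_mul_eq_div] at h
      exact h
    have hζ : nm q (β' / β) = 1 := by
      have h := herm_act (π d) (ev S.p1) (ev S.p1)
      rw [hd1, H3.hermForm_smul_left S.hF, H3.hermForm_smul_right S.hF, herm_ev S.hF] at h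
      simp only [ev, Pi.single_eq_same, mul_one] at h
      exact h
    have hζ' : nm q (β' / β) + nm q (0 : F) = 1 := by rw [hζ, nm_zero S.hF, add_zero]
    have hmv := mv_mem (N := N) S.hF S.p1 S.p2 S.ne12 (β' / β) 0 hζ'
    rw [Iv_pair (a := S.a + 1) S.p1 S.p2 rfl rfl] at hmv
    obtain ⟨t, htA, hπt⟩ := Am.exists_A (a := S.a + 1) S.hN3 hmv
    have ht1 : act (π t) (ev S.p1) = (β' / β) • ev S.p1 := by
      rw [hπt]
      obtain ⟨x1, x2, x3⟩ := act_mv S.hF S.p1 S.p2 S.ne12 (β' / β) 0 hζ' (ev S.p1 : Fin N → F)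
      funext k
      by_cases hk1 : k = S.p1
      · subst hk1; rw [x1]; simp [ev, S.ne12.symm]
      · by_cases hk2 : k = S.p2
        · subst hk2; rw [x2]; simp [ev, S.ne12.symm]
        · rw [x3 k hk1 hk2]; simp [ev, hk1]
    set t' := t⁻¹ * d with ht'
    have ht'T : t' ∈ S.T1 := mul_mem (inv_mem (S.A1_le htA)) hdT
    have hfix1 : act (π t') (ev S.p1) = ev S.p1 := by
      rw [ht', map_mul, map_inv, act_mul, hd1]; exact act_inv_eq ht1
    have ht'2 : t' ∈ Am.T (S.a + 1 + 1) S.b := S.ih.stab t' ht'T S.p1 rfl hfix1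
    have hc : Commute u1 t' := S.A_comm_T2 hu1 ht'2
    rw [show u2⁻¹ * d * u1 = u2⁻¹ * t * (t' * u1) by rw [ht']; group, ← hc.eq,
      show u2⁻¹ * t * (u1 * t') = u2⁻¹ * t * u1 * t' by group]
    refine mul_mem (S.A1_le (S.mem_A1_of_fix
      (mul_mem (mul_mem (inv_mem (S.A_le_V hu2)) (S.A1_le_V htA)) (S.A_le_V hu1)) ?_)) ht'T
    have ht'p : act (π t') p = p := by
      rw [hpe, act_add, act_smul, act_smul, S.T1_fix_e ht'T, hfix1]
    have htp : act (π t) p = p' := by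
      rw [← hdp, show d = t * t' by rw [ht']; group, map_mul, act_mul, ht'p]
    rw [map_mul, map_mul, map_inv, act_mul, act_mul, ← hp, htp]
    exact act_inv_eq hp'.symm

theorem decomp {c : ℕ} (hc : S.a + 2 ≤ c) {P : Subgroup Γ}
    (hlift : ∀ g ∈ (GI (Iv (S.a + 1) c) : Subgroup ↥(SU N F q)), ∃ s ∈ P, π s = g)
    {v : Fin N → F} (hv : Supp (Iv S.a c) v) (hn : hermForm N F q v v = 1)
    (hd : nm q (v S.p0) ≠ 1 ∨ ∀ k, k ≠ S.p0 → v k = 0) :
    ∃ s ∈ P, ∃ u ∈ Am.A S.a, act (π (s * u)) S.e = v := by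
  set v' := v - v S.p0 • S.e with hv'
  have hsum : hermForm N F q v' v' + nm q (v S.p0) = 1 := by rw [← hn, herm_off S.hF v S.p0]
  by_cases h0 : ∀ k, k ≠ S.p0 → v k = 0
  · have hv'z : v' = 0 := by rw [hv']; exact sub_eq_zero.2 (S.single_expand h0)
    rw [hv'z, H3.hermForm_zero_left S.hF, zero_add] at hsum
    obtain ⟨u, hu, hact⟩ := S.exists_u (x := v S.p0) (y := 0) (by rw [nm_zero S.hF, add_zero, hsum])
    refine ⟨1, one_mem _, u, hu, funext fun k => ?_⟩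
    rw [one_mul]
    by_cases hk : k = S.p0
    · subst hk; rw [(hact S.e).1]; simp [ev, S.ne01.symm]
    by_cases hk1 : k = S.p1
    · subst hk1; rw [(hact S.e).2, h0 _ hk]; simp [ev, hk]
    · rw [S.plane_coord hu hk hk1, h0 k hk]
  have hv's : Supp (Iv (S.a + 1) c) v' := fun k hk => by
    by_cases hk0 : k = S.p0
    · subst hk0; simp [hv', ev]
    · rw [show v' k = v k by simp [hv', ev, hk0]]
      refine hv k fun h => hk ⟨?_, h.2⟩
      have h1 := h.1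
      simp only [p0, Fin.ext_iff] at hk0
      omega
  have hv'n : hermForm N F q v' v' ≠ 0 := fun h => hd.resolve_right h0 (by rw [h, zero_add] at hsum; exact hsum)
  obtain ⟨g, hg, hgz⟩ := exists_move_to S.hF S.hq (I := Iv (S.a + 1) c) (a := S.p1)
    ⟨le_rfl, by show S.a + 1 < c; omega⟩ hv's hv'n
  obtain ⟨s, hs, rfl⟩ := hlift g hg
  set w := act (π s) v' with hw
  have hw0 : w S.p0 = 0 := hgz _ S.ne01
  have hwn : nm q (v S.p0) + nm q (w S.p1) = 1 := by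
    rw [← hsum, ← herm_act (π s) v' v', ← hw, herm_self,
      Finset.sum_eq_single S.p1 (fun k _ hk => by rw [hgz k hk, nm_zero S.hF]) (by simp), add_comm]
  obtain ⟨u, hu, hact⟩ := S.exists_u hwn
  refine ⟨s⁻¹, inv_mem hs, u, hu, ?_⟩
  have hue : act (π u) S.e = act (π s) v := by
    funext k
    rw [show v = v' + v S.p0 • S.e by simp [hv'], act_add, act_smul, hg S.p0 S.p0_notMem, ← hw]
    by_cases hk : k = S.p0
    · subst hk; rw [(hact S.e).1]; simp [ev, hw0, S.ne01.symm]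
    by_cases hk1 : k = S.p1
    · subst hk1; rw [(hact S.e).2]; simp [ev, hk]
    · rw [S.plane_coord hu hk hk1]; simp [ev, hk, hgz k hk1]
  rw [map_mul, map_inv, act_mul, hue]
  exact act_inv_eq rfl

theorem exists_rep {v : Fin N → F} (hv : S.D v) : ∃ s u, S.Rep v s u := by
  obtain ⟨s, hs, u, hu, he⟩ := S.decomp (c := S.b) (by have := S.hab; omega) (fun g hg => S.exists_T1 hg)
    hv.1.1 hv.1.2 hv.2
  exact ⟨s, u, hs, hu, he⟩

theorem decomp_V {v : Fin N → F} (hv : Supp (Iv S.a (S.a + 3)) v) (hn : hermForm N F q v v = 1)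
    (hd : nm q (v S.p0) ≠ 1 ∨ ∀ k, k ≠ S.p0 → v k = 0) :
    ∃ r ∈ Am.A (S.a + 1), ∃ w ∈ Am.A S.a, act (π (r * w)) S.e = v :=
  S.decomp (c := S.a + 3) (by omega) (fun g hg => Am.exists_A (a := S.a + 1) S.hN3 hg) hv hn hd

open scoped Classical in
/-- The coset of a vector. -/
noncomputable def c0 (v : Fin N → F) : Γ ⧸ S.T1 :=
  if h : ∃ s u, S.Rep v s u then ((h.choose * h.choose_spec.choose : Γ) : Γ ⧸ S.T1)
  else ((1 : Γ) : Γ ⧸ S.T1)

theorem c0_eq {v : Fin N → F} {s u : Γ} (h : S.Rep v s u) : S.c0 v = ((s * u : Γ) : Γ ⧸ S.T1) := by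
  have h' : ∃ s u, S.Rep v s u := ⟨s, u, h⟩
  rw [c0, dif_pos h']
  exact S.rep_unique h'.choose_spec.choose_spec h

theorem supp_e {c : ℕ} (h : S.a < c) : Supp (Iv S.a c) S.e := fun k hk => by
  have : k ≠ S.p0 := fun e => hk (e ▸ ⟨le_rfl, h⟩)
  simp [ev, this]

theorem herm_e : hermForm N F q S.e S.e = 1 := by rw [herm_ev S.hF]; simp [ev]

theorem D_e : S.D S.e :=
  ⟨⟨S.supp_e (by have := S.hab; omega), S.herm_e⟩, Or.inr fun k hk => by simp [ev, hk]⟩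

theorem c0_e : S.c0 S.e = ((1 : Γ) : Γ ⧸ S.T1) := by
  rw [S.c0_eq (s := 1) (u := 1) ⟨one_mem _, one_mem _, by rw [one_mul, map_one, act_one]⟩, one_mul]

/-- Equivariance at one vector. -/
def Eqv (g : Γ) (v : Fin N → F) : Prop := S.D (act (π g) v) ∧ S.c0 (act (π g) v) = g • S.c0 v

theorem Eqv.comp {g h : Γ} {v : Fin N → F} (hh : S.Eqv h v) (hg : S.Eqv g (act (π h) v)) : S.Eqv (g * h) v := by
  unfold Eqv at *
  rw [map_mul, act_mul]
  exact ⟨hg.1, by rw [hg.2, hh.2, mul_smul]⟩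

theorem eqv_T1 {s : Γ} (hs : s ∈ S.T1) {v : Fin N → F} (hv : S.D v) : S.Eqv s v := by
  obtain ⟨t, u, h⟩ := S.exists_rep hv
  refine ⟨S.D_T1 hs hv, ?_⟩
  rw [S.c0_eq h, S.c0_eq (v := act (π s) v) (s := s * t) (u := u) ⟨mul_mem hs h.1, h.2.1, by
    rw [mul_assoc, map_mul, act_mul, h.2.2]⟩, MulAction.Quotient.smul_coe, smul_eq_mul, mul_assoc]

theorem c0_V {k : Γ} (hk : k ∈ Am.V S.a) (hD : S.D (act (π k) S.e)) :
    S.c0 (act (π k) S.e) = ((k : Γ) : Γ ⧸ S.T1) := by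
  obtain ⟨r, hr, w, hw, he⟩ := S.decomp_V (act_supp S.hF (Am.map_V_mem S.hN3 hk) (S.supp_e (by omega))) hD.1.2 hD.2
  rw [S.c0_eq (s := r) (u := w) ⟨S.A1_le hr, hw, he⟩, QuotientGroup.eq]
  refine S.A1_le (S.mem_A1_of_fix (mul_mem (inv_mem (mul_mem (S.A1_le_V hr) (S.A_le_V hw))) hk) ?_)
  rw [map_mul, map_inv, act_mul]
  exact act_inv_eq he

/-- The norm of the coordinates beyond the first two. -/
def tail (v : Fin N → F) : F := hermForm N F q v v - nm q (v S.p0) - nm q (v S.p1)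

/-- The part beyond the first two coordinates. -/
def rest (v : Fin N → F) : Fin N → F := v - v S.p0 • S.e - v S.p1 • ev S.p1

theorem rest_apply (v : Fin N → F) {k : Fin N} (a : k ≠ S.p0) (b : k ≠ S.p1) : S.rest v k = v k := by
  simp [rest, ev, a, b]

theorem herm_rest (v : Fin N → F) : hermForm N F q (S.rest v) (S.rest v) = S.tail v := by
  have h1 := herm_off S.hF v S.p0
  have h2 := herm_off S.hF (v - v S.p0 • S.e) S.p1
  have h3 : (v - v S.p0 • S.e) S.p1 = v S.p1 := by simp [ev, S.ne01.symm]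
  rw [h3] at h2
  rw [tail, rest]
  linear_combination -h1 - h2

theorem supp_rest {v : Fin N → F} (hv : Supp (Iv S.a S.b) v) : Supp (Iv (S.a + 2) S.b) (S.rest v) := fun k hk => by
  by_cases a : k = S.p0
  · subst a; simp [rest, ev, S.ne01]
  by_cases b : k = S.p1
  · subst b; simp [rest, ev, S.ne01.symm]
  rw [S.rest_apply v a b]
  refine hv k fun h => hk ⟨?_, h.2⟩
  have h1 := h.1
  simp only [p0, p1, Fin.ext_iff] at a b
  omega

theorem act_T2_expand {t : Γ} (ht : t ∈ Am.T (S.a + 2) S.b) (v : Fin N → F) :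
    act (π t) v = act (π t) (S.rest v) + v S.p0 • S.e + v S.p1 • ev S.p1 := by
  conv_lhs => rw [show v = S.rest v + v S.p0 • S.e + v S.p1 • ev S.p1 by rw [rest]; abel]
  rw [act_add, act_add, act_smul, act_smul, S.map_T2 ht S.p0 S.p0_notMem2, S.map_T2 ht S.p1 S.p1_notMem2]

theorem tail_T2 {t : Γ} (ht : t ∈ Am.T (S.a + 2) S.b) (v : Fin N → F) :
    S.tail (act (π t) v) = S.tail v ∧ act (π t) v S.p1 = v S.p1 := by
  have h0 := act_coord S.hF (S.map_T2 ht) v S.p0_notMem2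
  have h1 := act_coord S.hF (S.map_T2 ht) v S.p1_notMem2
  exact ⟨by rw [tail, tail, herm_act, h0, h1], h1⟩

theorem tail_A {u : Γ} (hu : u ∈ Am.A S.a) (v : Fin N → F) : S.tail (act (π u) v) = S.tail v := by
  rw [← S.herm_rest, ← S.herm_rest, herm_self, herm_self]
  refine Finset.sum_congr rfl fun k _ => ?_
  by_cases a : k = S.p0
  · subst a; simp [rest, ev, S.ne01]
  by_cases b : k = S.p1
  · subst b; simp [rest, ev, S.ne01.symm]
  rw [S.rest_apply _ a b, S.rest_apply _ a b, S.A_coord hu v a b]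

theorem eqv_A_of_T2 {u t : Γ} (hu : u ∈ Am.A S.a) (ht : t ∈ Am.T (S.a + 2) S.b) {v : Fin N → F} (hv : S.D v)
    (h : S.Eqv u (act (π t) v)) : S.Eqv u v := by
  have h1 := (S.eqv_T1 (S.T2_le ht) hv).comp S h
  have h2 := h1.comp S (S.eqv_T1 (inv_mem (S.T2_le ht)) h1.1)
  rwa [(S.A_comm_T2 hu ht).eq, inv_mul_cancel_left] at h2

theorem D_comm {u t : Γ} (hu : u ∈ Am.A S.a) (ht : t ∈ Am.T (S.a + 2) S.b) {v : Fin N → F}
    (huv : S.D (act (π u) v)) : S.D (act (π u) (act (π t) v)) := by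
  rw [← act_mul, ← map_mul, (S.A_comm_T2 hu ht).eq, map_mul, act_mul]
  exact S.D_T1 (S.T2_le ht) huv

theorem eqv_A_good {u : Γ} (hu : u ∈ Am.A S.a) {v : Fin N → F} (hv : S.D v) (huv : S.D (act (π u) v))
    (hgood : S.tail v ≠ 0 ∨ S.rest v = 0) : S.Eqv u v := by
  have hout : ∀ w : Fin N → F, (∀ k, k ≠ S.p0 → k ≠ S.p1 → k ≠ S.p2 → w k = 0) →
      Supp (Iv S.a (S.a + 3)) w := fun w hw k hk => hw k
    (fun e => hk (e ▸ ⟨le_rfl, by show S.a < S.a + 3; omega⟩))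
    (fun e => hk (e ▸ ⟨by show S.a ≤ S.a + 1; omega, by show S.a + 1 < S.a + 3; omega⟩))
    (fun e => hk (e ▸ ⟨by show S.a ≤ S.a + 2; omega, by show S.a + 2 < S.a + 3; omega⟩))
  obtain ⟨t, ht, htz⟩ : ∃ t ∈ Am.T (S.a + 2) S.b, Supp (Iv S.a (S.a + 3)) (act (π t) v) := by
    by_cases h0 : S.rest v = 0
    · exact ⟨1, one_mem _, by
        rw [map_one, act_one]; exact hout v fun k a b _ => by rw [← S.rest_apply v a b, h0]; rfl⟩
    have hn0 : hermForm N F q (S.rest v) (S.rest v) ≠ 0 := by rw [S.herm_rest]; exact hgood.resolve_right h0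
    obtain ⟨g, hg, hgz⟩ := exists_move_to S.hF S.hq (I := Iv (S.a + 2) S.b) (a := S.p2)
      ⟨le_rfl, by show S.a + 2 < S.b; have := S.hab; omega⟩ (S.supp_rest hv.1.1) hn0
    obtain ⟨t, ht, rfl⟩ := S.exists_T2 hg
    refine ⟨t, ht, hout _ fun k a b c => ?_⟩
    rw [S.act_T2_expand ht]
    simp [hgz k c, ev, a, b]
  refine S.eqv_A_of_T2 hu ht hv ?_
  have hxD := S.D_T1 (S.T2_le ht) hv
  have huxD := S.D_comm hu ht huv
  set x := act (π t) v with hx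
  obtain ⟨r, hr, w, hw, hke⟩ := S.decomp_V htz hxD.1.2 hxD.2
  have hk : r * w ∈ Am.V S.a := mul_mem (S.A1_le_V hr) (S.A_le_V hw)
  have hc : act (π (u * (r * w))) S.e = act (π u) x := by rw [map_mul, act_mul, hke]
  refine ⟨huxD, ?_⟩
  rw [← hc, S.c0_V (mul_mem (S.A_le_V hu) hk) (hc ▸ huxD), ← hke, S.c0_V hk (hke ▸ hxD),
    MulAction.Quotient.smul_coe, smul_eq_mul]

/-- The swap lifts. -/
theorem exists_swaps : ∃ s ∈ Am.A (S.a + 1), ∃ u0 ∈ Am.A S.a,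
    (∀ v, act (π s⁻¹) v S.p1 = v S.p2 ∧ act (π s⁻¹) v S.p2 = -v S.p1 ∧
      ∀ k, k ≠ S.p1 → k ≠ S.p2 → act (π s⁻¹) v k = v k) ∧
    (∀ v, act (π u0⁻¹) v S.p0 = v S.p1 ∧ act (π u0⁻¹) v S.p1 = -v S.p0 ∧
      ∀ k, k ≠ S.p0 → k ≠ S.p1 → act (π u0⁻¹) v k = v k) := by
  have h1 : nm q (0 : F) + nm q (-1 : F) = 1 := by rw [nm_zero S.hF, zero_add, nm_neg S.hF, nm_one]
  have ha := mv_mem (N := N) S.hF S.p1 S.p2 S.ne12 0 (-1) h1
  rw [Iv_pair (a := S.a + 1) S.p1 S.p2 rfl rfl] at ha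
  obtain ⟨s, hs, hπs⟩ := Am.exists_A (a := S.a + 1) S.hN3 ha
  obtain ⟨u0, hu0, hact⟩ := S.exists_u h1
  have hq1 : (-1 : F) ^ q = -1 := by
    rw [show (-1 : F) ^ q = -(1 ^ q) from map_neg (H3.conjQ S.hF) (1 : F), one_pow]
  refine ⟨s⁻¹, inv_mem hs, u0⁻¹, inv_mem hu0, fun v => ?_, fun v => ?_⟩ <;> rw [inv_inv]
  · obtain ⟨a, b, c⟩ := act_mv S.hF S.p1 S.p2 S.ne12 0 (-1) h1 v
    rw [hπs]
    exact ⟨by rw [a, hq1]; ring, by rw [b, zero_pow (q_ne_zero S.hF)]; ring, c⟩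
  · obtain ⟨a, b⟩ := hact v
    exact ⟨by rw [a, hq1]; ring, by rw [b, zero_pow (q_ne_zero S.hF)]; ring, fun k => S.A_coord hu0 v⟩

theorem eqv_route {u : Γ} (hu : u ∈ Am.A S.a) {x : Fin N → F} (hx : S.D x) (hux : S.D (act (π u) x))
    (ht0 : S.tail x = 0) (hc1 : nm q (x S.p2) ≠ 1) (hc2 : nm q (x S.p2) ≠ nm q (x S.p1))
    (hc3 : nm q (x S.p2) ≠ nm q (act (π u) x S.p1)) : S.Eqv u x := by
  obtain ⟨s, hs, u0, hu0, hs', hu0'⟩ := S.exists_swaps
  have hsT := S.A1_le hs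
  set ŵ := s * u0 * s⁻¹ with hŵ
  have hŵV : ŵ ∈ Am.V S.a := mul_mem (mul_mem (S.A1_le_V hs) (S.A_le_V hu0)) (inv_mem (S.A1_le_V hs))
  set u' := ŵ⁻¹ * u * ŵ with hu'
  have hu'T : u' ∈ S.T1 := by
    refine S.A1_le (S.mem_A1_of_fix (mul_mem (mul_mem (inv_mem hŵV) (S.A_le_V hu)) hŵV) ?_)
    have h1 : act (π ŵ⁻¹) (ev S.p2) = S.e := by
      rw [hŵ, show (s * u0 * s⁻¹)⁻¹ = s * (u0⁻¹ * s⁻¹) by group, map_mul, map_mul, act_mul, act_mul]
      have e1 : act (π s⁻¹) (ev S.p2 : Fin N → F) = ev S.p1 := funext fun k => by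
        obtain ⟨a, b, c⟩ := hs' (ev S.p2)
        by_cases k1 : k = S.p1
        · subst k1; rw [a]; simp [ev]
        by_cases k2 : k = S.p2
        · subst k2; rw [b]; simp [ev, S.ne12, S.ne12.symm]
        · rw [c k k1 k2]; simp [ev, k1, k2]
      have e2 : act (π u0⁻¹) (ev S.p1 : Fin N → F) = S.e := funext fun k => by
        obtain ⟨a, b, c⟩ := hu0' (ev S.p1)
        by_cases k0 : k = S.p0
        · subst k0; rw [a]; simp [ev]
        by_cases k1 : k = S.p1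
        · subst k1; rw [b]; simp [ev, S.ne01, S.ne01.symm]
        · rw [c k k0 k1]; simp [ev, k0, k1]
      rw [e1, e2, S.T1_fix_e hsT]
    have hwe : act (π ŵ) S.e = ev S.p2 := by
      rw [map_inv] at h1
      have := act_inv_eq h1
      rwa [inv_inv] at this
    rw [map_mul, map_mul, map_inv, act_mul, act_mul, hwe, Am.map_A_mem S.hN2 hu S.p2 S.p2_notMem]
    exact act_inv_eq hwe
  -- the tail after the first swap
  have htail : ∀ w : Fin N → F, S.tail (act (π s⁻¹) w) = S.tail w + nm q (w S.p1) - nm q (w S.p2) := fun w => by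
    obtain ⟨a, b, c⟩ := hs' w
    rw [tail, tail, herm_act, a, c S.p0 S.ne01 S.ne02]
    ring
  have h1 := S.eqv_T1 (inv_mem hsT) hx
  obtain ⟨b1, -, -⟩ := hu0' (act (π s⁻¹) x)
  have hy1 : S.D (act (π u0⁻¹) (act (π s⁻¹) x)) :=
    ⟨S.unit_act (S.map_A_I (inv_mem hu0)) h1.1.1, Or.inl (by rw [b1, (hs' x).1]; exact hc1)⟩
  have h2 := S.eqv_A_good (inv_mem hu0) h1.1 hy1
    (Or.inl (by rw [htail, ht0, zero_add]; exact sub_ne_zero.2 (Ne.symm hc2)))
  have h12 := h1.comp S h2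
  have h3 := h12.comp S (S.eqv_T1 hsT h12.1)
  have h4 := h3.comp S (S.eqv_T1 hu'T h3.1)
  have h5 := h4.comp S (S.eqv_T1 (inv_mem hsT) h4.1)
  have hq1 : act (π u0) (act (π (s⁻¹ * (u' * (s * (u0⁻¹ * s⁻¹))))) x) = act (π s⁻¹) (act (π u) x) := by
    rw [← act_mul, ← map_mul, ← act_mul, ← map_mul,
      show u0 * (s⁻¹ * (u' * (s * (u0⁻¹ * s⁻¹)))) = s⁻¹ * u by rw [hu', hŵ]; group]
  have hq1D := hq1.symm ▸ S.D_T1 (inv_mem hsT) hux
  have hz : S.tail (act (π (s⁻¹ * (u' * (s * (u0⁻¹ * s⁻¹))))) x) =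
      nm q (act (π u) x S.p1) - nm q (x S.p2) := by
    rw [← S.tail_A hu0, hq1, htail, S.tail_A hu, ht0, zero_add, S.A_coord hu x S.ne02.symm S.ne12.symm]
  have h6 := h5.comp S (S.eqv_A_good hu0 h5.1 hq1D (Or.inl (by rw [hz]; exact sub_ne_zero.2 (Ne.symm hc3))))
  have h7 := h6.comp S (S.eqv_T1 hsT h6.1)
  have heq : s * (u0 * (s⁻¹ * (u' * (s * (u0⁻¹ * s⁻¹))))) = u := by rw [hu', hŵ]; group
  rwa [heq] at h7

theorem eqv_A_bad {u : Γ} (hu : u ∈ Am.A S.a) {v : Fin N → F} (hv : S.D v) (huv : S.D (act (π u) v))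
    (ht0 : S.tail v = 0) (hne : S.rest v ≠ 0)
    (hone : nm q (v S.p1) = 1 ∨ nm q (act (π u) v S.p1) = 1) : S.Eqv u v := by
  obtain ⟨g', hg1, hg2⟩ : ∃ g' : F, (nm q (v S.p1) = 1 ∨ nm q (v S.p1) = g') ∧
      (nm q (act (π u) v S.p1) = 1 ∨ nm q (act (π u) v S.p1) = g') := by
    rcases hone with h | h
    · exact ⟨nm q (act (π u) v S.p1), Or.inl h, Or.inr rfl⟩
    · exact ⟨nm q (v S.p1), Or.inr rfl, Or.inl h⟩
  obtain ⟨c, hc0, hc1, hc2⟩ := exists_nm_avoid S.hF S.hq (1 : F) g'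
  obtain ⟨g, hg, hgc⟩ := exists_iso_coord S.hF S.hq (J := Iv (S.a + 2) S.b) (j := S.p2)
    ⟨le_rfl, by show S.a + 2 < S.b; have := S.hab; omega⟩ (S.supp_rest hv.1.1) hne (by rw [S.herm_rest, ht0]) hc0
  obtain ⟨t, ht, rfl⟩ := S.exists_T2 hg
  refine S.eqv_A_of_T2 hu ht hv ?_
  have hx2 : act (π t) v S.p2 = c := by
    rw [S.act_T2_expand ht]
    simp [hgc, ev, S.ne02.symm, S.ne12.symm]
  have hu2 : act (π u) (act (π t) v) S.p1 = act (π u) v S.p1 := by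
    rw [← act_mul, ← map_mul, (S.A_comm_T2 hu ht).eq, map_mul, act_mul, (S.tail_T2 ht _).2]
  refine S.eqv_route hu (S.D_T1 (S.T2_le ht) hv) (S.D_comm hu ht huv) ((S.tail_T2 ht v).1.trans ht0)
    (by rw [hx2]; exact hc1) ?_ ?_
  · rw [hx2, (S.tail_T2 ht v).2]
    rcases hg1 with h | h <;> rw [h] <;> assumption
  · rw [hx2, hu2]
    rcases hg2 with h | h <;> rw [h] <;> assumption

theorem eqv_A {u : Γ} (hu : u ∈ Am.A S.a) {v : Fin N → F} (hv : S.D v) (huv : S.D (act (π u) v)) :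
    S.Eqv u v := by
  by_cases hne : S.rest v = 0
  · exact S.eqv_A_good hu hv huv (Or.inr hne)
  by_cases ht : S.tail v = 0
  swap
  · exact S.eqv_A_good hu hv huv (Or.inl ht)
  have hsum : nm q (v S.p0) + nm q (v S.p1) = 1 := by
    rw [tail, hv.1.2] at ht; linear_combination -ht
  obtain ⟨g1, hg1, e0, e1, e2⟩ := exists_pair_move S.hF S.p0 S.p1 S.ne01 (v := v) (a := 0) (b := 1)
    (by rw [hsum]; exact one_ne_zero) (by rw [nm_zero S.hF, nm_one, zero_add, hsum])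
  rw [Iv_pair (a := S.a) S.p0 S.p1 rfl rfl] at hg1
  obtain ⟨u1, hu1, rfl⟩ := Am.exists_A S.hN2 hg1
  set w := act (π u1) v with hw
  have hwD : S.D w := ⟨S.unit_act (S.map_A_I hu1) hv.1, Or.inl (by rw [e0, nm_zero S.hF]; exact zero_ne_one)⟩
  have hw1 : nm q (w S.p1) = 1 := by rw [e1, nm_one]
  have h1 := S.eqv_A_bad hu1 hv hwD ht hne (Or.inr hw1)
  have hm := mul_mem hu (inv_mem hu1)
  have huw : act (π (u * u1⁻¹)) w = act (π u) v := by
    rw [map_mul, act_mul, map_inv, hw, act_inv_eq rfl]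
  have hwrest : S.rest w ≠ 0 := fun h => hne (funext fun k => by
    by_cases a : k = S.p0
    · subst a; simp [rest, ev, S.ne01]
    by_cases b : k = S.p1
    · subst b; simp [rest, ev, S.ne01.symm]
    · rw [S.rest_apply v a b, ← e2 k a b, ← S.rest_apply w a b, h])
  have h2 := h1.comp S (S.eqv_A_bad hm hwD (huw ▸ huv) ((S.tail_A hu1 v).trans ht) hwrest (Or.inl hw1))
  rwa [inv_mul_cancel_right] at h2

theorem eqv_V {k : Γ} (hk : k ∈ Am.V S.a) (hke : S.D (act (π k) S.e)) {x : Fin N → F} (hx : S.D x)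
    (hkx : S.D (act (π k) x)) : S.Eqv k x := by
  obtain ⟨r, hr, w, hw, he⟩ := S.decomp_V
    (act_supp S.hF (Am.map_V_mem S.hN3 hk) (S.supp_e (by omega))) hke.1.2 hke.2
  set d := (r * w)⁻¹ * k with hd'
  have hd : d ∈ Am.A (S.a + 1) := by
    refine S.mem_A1_of_fix (mul_mem (inv_mem (mul_mem (S.A1_le_V hr) (S.A_le_V hw))) hk) ?_
    rw [hd', map_mul, map_inv, act_mul]
    exact act_inv_eq he
  have h1 := S.eqv_T1 (S.A1_le hd) hx
  have hmid : act (π w) (act (π d) x) = act (π r⁻¹) (act (π k) x) := by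
    rw [← act_mul, ← map_mul, ← act_mul, ← map_mul, hd']
    congr 2
    group
  have hwD : S.D (act (π w) (act (π d) x)) := hmid ▸ S.D_T1 (inv_mem (S.A1_le hr)) hkx
  have h2 := h1.comp S (S.eqv_A hw h1.1 hwD)
  have h3 := h2.comp S (S.eqv_T1 (S.A1_le hr) h2.1)
  rwa [show r * (w * d) = k by rw [hd']; group] at h3

end Step

end Cfsg.Agent.H78.Phan
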