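import Cfsg.Agent.H78.Phan.Chain
import Cfsg.Agent.H78.Phan.Extend

/-!
# Recognition from a weak Phan system
-/

set_option autoImplicit false

namespace Cfsg.Agent.H78.Phan

open Matrix Cfsg

variable {F : Type*} [Field F] [Fintype F] {q : ℕ} {G : Type*} [Group G]

/-- A chain of standard pairs agreeing on the common blocks. -/
theorem exists_chain (hF : Fintype.card F = q ^ 2) (hq : 4 ≤ q) {n : ℕ} (U : ℕ → Subgroup G)
    (hstd : ∀ i, i + 1 < n → ∃ φ : ↥(SU 3 F q) →* G, Std φ (U i) (U (i + 1)))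
    (hc : ∀ i j, i + 2 ≤ j → j < n → ∀ x ∈ U i, ∀ y ∈ U j, x * y = y * x) :
    ∀ m, m + 1 < n → ∃ f : ℕ → (↥(SU 3 F q) →* G), (∀ i, i ≤ m → Std (f i) (U i) (U (i + 1))) ∧
      ∀ i, i < m → (f (i + 1)).comp lo = (f i).comp hi := by
  intro m
  induction m with
  | zero =>
    intro h
    obtain ⟨φ, hφ⟩ := hstd 0 h
    exact ⟨fun _ => φ, fun i hi => by obtain rfl : i = 0 := (by omega); exact hφ, fun i hi => by omega⟩
  | succ m ih =>
    intro h
    obtain ⟨f, h1, h2⟩ := ih (by omega)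
    obtain ⟨φ', hφ'⟩ := hstd (m + 1) h
    obtain ⟨ψ, hψ, hcomp⟩ := exists_next hF hq (h1 m le_rfl) hφ' (hc m (m + 1 + 1) (by omega) h)
    refine ⟨Function.update f (m + 1) ψ, fun i hi => ?_, fun i hi => ?_⟩
    · rcases (show i = m + 1 ∨ i ≤ m by omega) with rfl | hle
      · rw [Function.update_self]; exact hψ
      · rw [Function.update_of_ne (by omega)]; exact h1 i hle
    · rcases (show i = m ∨ i < m by omega) with rfl | hlt
      · rw [Function.update_self, Function.update_of_ne (by omega)]; exact hcomp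
      · rw [Function.update_of_ne (by omega), Function.update_of_ne (by omega)]; exact h2 i hlt

/-- The unitary group maps onto a group with compatible standard pairs. -/
theorem exists_hom (hF : Fintype.card F = q ^ 2) (hq : 4 ≤ q) {n : ℕ} (hn : 3 ≤ n) (U : ℕ → Subgroup G)
    (f : ℕ → (↥(SU 3 F q) →* G)) (hf : ∀ i, i + 1 < n → Std (f i) (U i) (U (i + 1)))
    (hf2 : ∀ i, i + 2 < n → (f (i + 1)).comp lo = (f i).comp hi)
    (hc : ∀ i j, i + 2 ≤ j → j < n → ∀ x ∈ U i, ∀ y ∈ U j, x * y = y * x) :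
    ∃ Φ : ↥(SU (n + 1) F q) →* G, ∀ i, i < n → U i ≤ Φ.range := by
  classical
  let ψ : ℕ → (↥(SU 2 F q) →* G) := fun a => if a + 1 < n then (f a).comp lo else (f (a - 1)).comp hi
  have hψ1 : ∀ a, a + 1 < n → ψ a = (f a).comp lo := fun a ha => if_pos ha
  have hψ2 : ∀ a, a + 1 < n → ψ (a + 1) = (f a).comp hi := fun a ha => by
    by_cases h : a + 1 + 1 < n
    · rw [hψ1 _ h, hf2 a h]
    · exact (if_neg h).trans (by rw [Nat.add_sub_cancel])
  have hψr : ∀ a, a < n → (ψ a).range = U a := fun a ha => by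
    by_cases h : a + 1 < n
    · rw [hψ1 a h, (hf a h).rangeA]
    · obtain ⟨b, rfl⟩ : ∃ b, a = b + 1 := ⟨a - 1, by omega⟩
      rw [hψ2 b ha, (hf b ha).rangeB]
  let π : G × ↥(SU (n + 1) F q) →* ↥(SU (n + 1) F q) := MonoidHom.snd G _
  let A : ℕ → Subgroup (G × ↥(SU (n + 1) F q)) := fun a =>
    if h : a + 2 ≤ n + 1 then ((ψ a).prod (emb (e2 a h))).range else ⊥
  let V : ℕ → Subgroup (G × ↥(SU (n + 1) F q)) := fun a =>
    if h : a + 3 ≤ n + 1 then ((f a).prod (emb (e3 a h))).range else ⊥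
  have hA : ∀ a (h : a + 2 ≤ n + 1), A a = ((ψ a).prod (emb (e2 a h))).range := fun a h => dif_pos h
  have hV : ∀ a (h : a + 3 ≤ n + 1), V a = ((f a).prod (emb (e3 a h))).range := fun a h => dif_pos h
  let Am : Amal π :=
    { A := A
      V := V
      mapA := fun a h => by
        rw [hA a h, MonoidHom.map_range, show π.comp ((ψ a).prod (emb (e2 a h))) = emb (e2 a h) from rfl,
          range_emb _ hF, range_e2]
        rfl
      mapV := fun a h => by
        rw [hV a h, MonoidHom.map_range, show π.comp ((f a).prod (emb (e3 a h))) = emb (e3 a h) from rfl,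
          range_emb _ hF, range_e3]
        rfl
      injV := fun a h x hx h1 => by
        rw [hV a h] at hx
        obtain ⟨y, rfl⟩ := hx
        have : y = 1 := emb_injective (e3 a h) (h1.trans (map_one _).symm)
        rw [this, map_one]
      A_le := fun a h => by
        refine ⟨?_, ?_⟩
        · rw [hA a (by omega), hV a h]
          rintro _ ⟨x, rfl⟩
          refine ⟨lo x, Prod.ext ?_ ?_⟩
          · show f a (lo x) = ψ a x
            rw [hψ1 a (by omega)]; rfl
          · show emb (e3 a h) (lo x) = emb (e2 a _) x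
            rw [emb_trans]
            congr 2
            exact Function.Embedding.ext fun i => Fin.ext (by show a + (0 + (i : ℕ)) = a + i; omega)
        · rw [hA (a + 1) (by omega), hV a h]
          rintro _ ⟨x, rfl⟩
          refine ⟨hi x, Prod.ext ?_ ?_⟩
          · show f a (hi x) = ψ (a + 1) x
            rw [hψ2 a (by omega)]; rfl
          · show emb (e3 a h) (hi x) = emb (e2 (a + 1) _) x
            rw [emb_trans]
            congr 2
            exact Function.Embedding.ext fun i => Fin.ext (by show a + (1 + (i : ℕ)) = a + 1 + i; omega)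
      comm := fun a b hab hb x hx y hy => by
        rw [hA a (by omega)] at hx
        rw [hA b hb] at hy
        obtain ⟨x, rfl⟩ := hx
        obtain ⟨y, rfl⟩ := hy
        refine Prod.ext (hc a b hab (by omega) _ (hψr a (by omega) ▸ ⟨x, rfl⟩) _ (hψr b (by omega) ▸ ⟨y, rfl⟩)) ?_
        show emb _ x * emb _ y = emb _ y * emb _ x
        refine (GI_commute hF (emb_mem _ x) (emb_mem _ y) ?_).eq
        rw [range_e2, range_e2, Set.disjoint_left]
        intro k hk hk'
        have := hk.2; have := hk'.1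
        omega }
  obtain ⟨s, -, hs⟩ := Am.exists_section hF hq (by omega)
  refine ⟨(MonoidHom.fst G _).comp s, fun i hi g hg => ?_⟩
  rw [← hψr i hi] at hg
  obtain ⟨x, rfl⟩ := hg
  have hmem : (ψ i).prod (emb (e2 i (show i + 2 ≤ n + 1 by omega))) x ∈ s.range := by
    rw [hs]
    exact Am.A_le_T (k := i) ⟨Nat.zero_le _, by omega⟩ (show _ ∈ A i by rw [hA i (by omega)]; exact ⟨x, rfl⟩)
  obtain ⟨w, hw⟩ := hmem
  exact ⟨w, congrArg Prod.fst hw⟩

/-- Recognition of unitary groups from a weak Phan system. -/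
theorem exists_surjective (n : ℕ) (hn : 3 ≤ n) (hq : 4 ≤ q) (hF : Fintype.card F = q ^ 2)
    (U : Fin n → Subgroup G) (V : Fin n → Fin n → Subgroup G)
    (h1 : ∀ i j : Fin n, (i : ℕ) + 2 ≤ j → ∀ x ∈ U i, ∀ y ∈ U j, x * y = y * x)
    (h2 : ∀ i j : Fin n, (i : ℕ) + 1 = j → IsStandardUnitaryPair (V i j) (U i) (U j) F q)
    (hgen : (⨆ i, U i) ⊔ (⨆ (i : Fin n) (j : Fin n) (_ : (i : ℕ) + 1 = j), V i j) = ⊤) :
    ∃ f : ↥(SU (n + 1) F q) →* G, Function.Surjective f := by
  classical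
  let U' : ℕ → Subgroup G := fun i => if h : i < n then U ⟨i, h⟩ else ⊥
  have hU : ∀ i : Fin n, U' (i : ℕ) = U i := fun i => dif_pos i.2
  have hstd : ∀ i, i + 1 < n → ∃ φ : ↥(SU 3 F q) →* G, Std φ (U' i) (U' (i + 1)) := fun i hi => by
    obtain ⟨φ, hφ, -⟩ := exists_std hF (h2 ⟨i, by omega⟩ ⟨i + 1, hi⟩ rfl)
    exact ⟨φ, by rw [← hU, ← hU] at hφ; exact hφ⟩
  have hc : ∀ i j, i + 2 ≤ j → j < n → ∀ x ∈ U' i, ∀ y ∈ U' j, x * y = y * x := fun i j hij hj x hx y hy =>
    h1 ⟨i, by omega⟩ ⟨j, hj⟩ hij x (by rwa [← hU]) y (by rwa [← hU])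
  obtain ⟨f, hf1, hf2⟩ := exists_chain hF hq U' hstd hc (n - 2) (by omega)
  obtain ⟨Φ, hΦ⟩ := exists_hom hF hq hn U' f (fun i hi => hf1 i (by omega)) (fun i hi => hf2 i (by omega)) hc
  refine ⟨Φ, MonoidHom.range_eq_top.1 (eq_top_iff.2 (hgen ▸ sup_le (iSup_le fun i => ?_) ?_))⟩
  · rw [← hU]; exact hΦ i i.2
  · refine iSup_le fun i => iSup_le fun j => iSup_le fun hij => ?_
    obtain ⟨φ, hφ, hr⟩ := exists_std hF (h2 i j hij)
    rw [← hr, hφ.range_eq hF hq]
    exact sup_le (hU i ▸ hΦ i i.2) (hU j ▸ hΦ j j.2)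

end Cfsg.Agent.H78.Phan
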