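import Cfsg.Agent.H78.Phan.Fixer
import Cfsg.Agent.H78.Phan.Weak

/-!
# Phan's recognition theorem
-/

set_option autoImplicit false

namespace Cfsg.Agent.H78.Phan

open Matrix Cfsg

variable {F : Type*} [Field F] [Fintype F] {q : ℕ} {G : Type*} [Group G]

/-- Phan's recognition of unitary groups. -/
theorem phan (n : ℕ) (hn : 2 ≤ n) (hq : 4 < q) (hF : Fintype.card F = q ^ 2)
    (U : Fin n → Subgroup G) (e : ∀ i, ↥(SU 2 F q) ≃* ↥(U i)) (hgen : ⨆ i, U i = ⊤)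
    (D : Fin n → Subgroup G) (hD : ∀ i, D i ≤ U i ∧ IsCyclic ↥(D i) ∧ Nat.card ↥(D i) = q + 1)
    (h1 : ∀ i j : Fin n, (i : ℕ) + 2 ≤ j → ∀ x ∈ U i, ∀ y ∈ U j, x * y = y * x)
    (h2 : ∀ i j : Fin n, (i : ℕ) + 1 = j → Nonempty (↥(U i ⊔ U j) ≃* ↥(SU 3 F q)))
    (h3 : ∀ i j : Fin n, i ≠ j → ∀ x ∈ D i, ∀ y ∈ D j, x * y = y * x) :
    ∃ f : ↥(SU (n + 1) F q) →* G, Function.Surjective f := by
  rcases (show n = 2 ∨ 3 ≤ n by omega) with rfl | hn3
  · obtain ⟨ψ⟩ := h2 0 1 rfl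
    have htop : U 0 ⊔ U 1 = ⊤ := top_le_iff.1 (hgen ▸ iSup_le fun i => by
      fin_cases i
      · exact le_sup_left
      · exact le_sup_right)
    exact ⟨(U 0 ⊔ U 1).subtype.comp ψ.symm.toMonoidHom, fun g =>
      ⟨ψ ⟨g, htop ▸ Subgroup.mem_top g⟩, by simp⟩⟩
  · have gen : ∀ i, ∃ d ∈ D i, orderOf d = q + 1 := fun i => by
      haveI := (hD i).2.1
      obtain ⟨g, hg⟩ := IsCyclic.exists_generator (α := ↥(D i))
      refine ⟨g, g.2, ?_⟩
      rw [← (hD i).2.2, ← orderOf_eq_card_of_forall_mem_zpowers hg]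
      exact orderOf_injective (D i).subtype (Subgroup.subtype_injective _) g
    refine exists_surjective n hn3 (by omega) hF U (fun i j => U i ⊔ U j) h1 (fun i j hij => ?_) ?_
    · obtain ⟨ψ⟩ := h2 i j hij
      obtain ⟨a, ha, hoa⟩ := gen i
      obtain ⟨b, hb, hob⟩ := gen j
      exact isStandard_of_tori hF (by omega) (e i) (e j) ψ ((hD i).1 ha) ((hD j).1 hb) hoa hob
        (h3 i j (fun h => by subst h; omega) a ha b hb)
    · rw [hgen]; exact top_sup_eq _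

end Cfsg.Agent.H78.Phan
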