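import Cfsg.Agent.H78.Phan.ThreeStd
import Cfsg.Agent.H23.AutPSU.Main
import Cfsg.Agent.H3.Simple

/-!
# Recognition over nine elements
-/

set_option autoImplicit false

namespace Cfsg.Agent.H78.Phan

open Matrix Cfsg

variable {F : Type*} [Field F] [Fintype F] (hF : Fintype.card F = 3 ^ 2)
include hF

/-- Automorphisms of three coordinates preserving the blocks are diagonal semilinear. -/
theorem rigid_three : Rigid F 3 := by
  classical
  intro θ hlo hhi
  have hc : Subgroup.map (θ : ↥(SU 3 F 3) →* ↥(SU 3 F 3)) (Subgroup.center ↥(SU 3 F 3)) =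
      Subgroup.center ↥(SU 3 F 3) := by rw [center3 hF, Subgroup.map_bot]
  let α : MulAut (Cfsg.PSU 3 F 3) := QuotientGroup.congr _ _ θ hc
  obtain ⟨M, σ, hα⟩ := H23.AutPSU.exists_semilinear hF le_rfl (by omega) α
  have hθ : ∀ x, θ x = H23.AutPSU.semiHom M σ x := fun x => by
    have e : (H23.AutPSU.mk' (θ x) : Cfsg.PSU 3 F 3) = H23.AutPSU.mk' (H23.AutPSU.semiHom M σ x) := by
      rw [← H23.AutPSU.semiAut_mk, ← hα]
      rfl
    have h : (θ x)⁻¹ * H23.AutPSU.semiHom M σ x ∈ Subgroup.center ↥(SU 3 F 3) := QuotientGroup.eq.1 e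
    rw [center3 hF, Subgroup.mem_bot, inv_mul_eq_one] at h
    exact h
  set P := (M.1 : Matrix (Fin 3) (Fin 3) F) with hP
  set P' := ((M.1⁻¹ : GL (Fin 3) F) : Matrix (Fin 3) (Fin 3) F)
  -- fixed vectors of a block are moved to fixed vectors of its image
  have key : ∀ (j : Fin 3) (S : Subgroup ↥(SU 3 F 3)), S.map θ.toMonoidHom = S →
      (∀ x ∈ S, act x (ev j) = ev j) → ∀ y ∈ S, act y (P *ᵥ ev j) = P *ᵥ ev j := by
    intro j S hS hfix y hy
    rw [← hS] at hy
    obtain ⟨x, hx, rfl⟩ := hy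
    show act (θ x) (P *ᵥ ev j) = _
    rw [hθ]
    show H23.AutPSU.semiMat M.1 σ (mat x) *ᵥ (P *ᵥ ev j) = _
    rw [H23.AutPSU.semiMat, Matrix.mulVec_mulVec]
    simp only [P, mul_assoc, ← Units.val_mul, inv_mul_cancel, Units.val_one, mul_one]
    rw [← Matrix.mulVec_mulVec]
    congr 1
    funext i
    have h := congrFun (hfix x hx) i
    rw [mat_col] at h
    simp only [ev, Matrix.mulVec_single_one, Matrix.col_apply, Matrix.map_apply, h]
    by_cases e : i = j
    · subst e; simp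
    · simp [e]
  obtain ⟨hι0, hι1, hι2⟩ := iota_ne hF
  have hι1' : iota hF - 1 ≠ 0 := sub_ne_zero.2 hι1
  have hι2' : -iota hF - 1 ≠ 0 := fun e => hι2 (by linear_combination -e)
  have h0 : act (hi (qa hF)) (P *ᵥ ev 0) = P *ᵥ ev 0 := key 0 _ hhi (fun x hx => by
    rw [range_emb _ hF, range_e2] at hx; exact hx 0 (by simp)) _ ⟨_, rfl⟩
  have h2 : act (lo (qa hF)) (P *ᵥ ev 2) = P *ᵥ ev 2 := key 2 _ hlo (fun x hx => by
    rw [range_emb _ hF, range_e2] at hx; exact hx 2 (by simp)) _ ⟨_, rfl⟩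
  rw [qa, act_hi] at h0
  rw [qa, act_lo] at h2
  have col : ∀ i j, (P *ᵥ ev j) i = P i j := fun i j => by simp [ev]
  have z10 : P 1 0 = 0 := (mul_eq_zero.1 (show (iota hF - 1) * P 1 0 = 0 by
    have e := congrFun h0 1
    simp [col, zero_pow] at e
    linear_combination e)).resolve_left hι1'
  have z20 : P 2 0 = 0 := (mul_eq_zero.1 (show (-iota hF - 1) * P 2 0 = 0 by
    have e := congrFun h0 2
    simp [col, iota_cube hF] at e
    linear_combination e)).resolve_left hι2'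
  have z02 : P 0 2 = 0 := (mul_eq_zero.1 (show (iota hF - 1) * P 0 2 = 0 by
    have e := congrFun h2 0
    simp [col, zero_pow] at e
    linear_combination e)).resolve_left hι1'
  have z12 : P 1 2 = 0 := (mul_eq_zero.1 (show (-iota hF - 1) * P 1 2 = 0 by
    have e := congrFun h2 1
    simp [col, iota_cube hF] at e
    linear_combination e)).resolve_left hι2'
  have orth : ∀ i j : Fin 3, hermForm 3 F 3 (P *ᵥ ev i) (P *ᵥ ev j) = if i = j then 1 else 0 := fun i j => by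
    rw [H3.GU_preserves M, herm_ev hF]
    simp [ev, Pi.single_apply, eq_comm]
  have d00 : P 0 0 * P 0 0 ^ 3 = 1 := by
    have e := orth 0 0
    simpa [hermForm, Fin.sum_univ_three, col, z10, z20] using e
  have d22 : P 2 2 * P 2 2 ^ 3 = 1 := by
    have e := orth 2 2
    simpa [hermForm, Fin.sum_univ_three, col, z02, z12] using e
  have n00 : P 0 0 ≠ 0 := fun e => by simp [e] at d00
  have n22 : P 2 2 ≠ 0 := fun e => by simp [e] at d22
  have z01 : P 0 1 = 0 := by
    have e := orth 1 0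
    simpa [hermForm, Fin.sum_univ_three, col, z10, z20, n00] using e
  have z21 : P 2 1 = 0 := by
    have e := orth 1 2
    simpa [hermForm, Fin.sum_univ_three, col, z02, z12, n22] using e
  have d11 : P 1 1 * P 1 1 ^ 3 = 1 := by
    have e := orth 1 1
    simpa [hermForm, Fin.sum_univ_three, col, z01, z21] using e
  let d : Fin 3 → F := ![P 0 0, P 1 1, P 2 2]
  have hd : ∀ i, d i ^ (3 + 1) = 1 := fun i => by
    rw [pow_succ']
    fin_cases i
    · exact d00
    · exact d11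
    · exact d22
  have hM : M = H3.guDiag d hd := H3.GU_ext fun x => by
    show P *ᵥ x = Matrix.diagonal d *ᵥ x
    congr 1
    ext i j
    fin_cases i <;> fin_cases j <;> simp [d, z01, z02, z10, z12, z20, z21]
  exact ⟨d, hd, σ, fun x => by rw [hθ, hM]⟩

variable {G : Type*} [Group G]

/-- Standard quadruples. -/
theorem std4_three {U V : ℕ → Subgroup G} {a : ℕ} (eU : ↥(SU 2 F 3) ≃* ↥(U a))
    (hs0 : ∃ φ : ↥(SU 3 F 3) →* G, Std φ (U a) (U (a + 1)) ∧ φ.range = V a)
    (hs1 : ∃ φ : ↥(SU 3 F 3) →* G, Std φ (U (a + 1)) (U (a + 2)) ∧ φ.range = V (a + 1))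
    (hc : ∀ x ∈ U a, ∀ y ∈ U (a + 2), x * y = y * x)
    (h4 : ∃ g : ↥(SU 4 F 3) →* ↥(V a ⊔ V (a + 1)), Function.Surjective g) :
    ∃ g : ↥(SU 4 F 3) →* G, Std4 g U V a := by
  obtain ⟨φ, hφ, hφr⟩ := hs0
  obtain ⟨ψ, hψ, hψr⟩ := hs1
  obtain ⟨g0, hg0⟩ := h4
  set g := (V a ⊔ V (a + 1)).subtype.comp g0 with hg
  have hrange : g.range = V a ⊔ V (a + 1) := by
    rw [hg, MonoidHom.range_comp, MonoidHom.range_eq_top.2 hg0, ← MonoidHom.range_eq_map, Subgroup.range_subtype]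
  have hk : g.ker ≤ Subgroup.center ↥(SU 4 F 3) := by
    refine (H3.normal_le_center_or_eq_top hF (by omega) (by omega) g.ker).resolve_right fun h => ?_
    have hbot : g.range = ⊥ := by
      rw [eq_bot_iff]
      rintro _ ⟨x, rfl⟩
      exact Subgroup.mem_bot.2 (MonoidHom.mem_ker.1 (h ▸ Subgroup.mem_top x))
    have h1 : (eU (qn hF) : G) = 1 := by
      have hm : (eU (qn hF) : G) ∈ g.range := by
        rw [hrange]
        refine Subgroup.mem_sup_left ?_
        rw [← hφr, range_three hF, hφ.rangeA, hφ.rangeB]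
        exact Subgroup.mem_sup_left (eU (qn hF)).2
      exact Subgroup.mem_bot.1 (hbot ▸ hm)
    have h2 : qn hF = 1 := eU.injective (Subtype.ext (h1.trans (by simp)))
    have h3 := congrFun (congrFun (congrArg mat h2) 0) 0
    rw [qn, mat_su2] at h3
    simp [mat] at h3
    exact two_ne_zero' hF (by linear_combination -h3)
  obtain ⟨g', hk', hrg, hA, hB⟩ := exists_adapted hF hk hφ (by rw [hφr, hrange]; exact le_sup_left)
  have hr3 : (ψ.comp hi).range ≤ g'.range := by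
    rw [hrg, hrange, ← hψr]
    exact fun _ ⟨x, hx⟩ => Subgroup.mem_sup_right ⟨hi x, hx⟩
  have hC : (g'.comp (pair4 2 (by omega))).range = U (a + 2) := by
    rw [← hψ.rangeB]
    exact third_block hF hk' ((std3_inj hF hψ).comp (emb_injective _)) hr3
      (ε1 := φ.comp lo) (by rw [hA, hφ.rangeA])
      (fun x hx y hy => hc x (hφ.rangeA ▸ hx) y (hψ.rangeB ▸ hy))
  refine ⟨g', hk', fun j hj => ?_, ?_, ?_⟩
  · rcases (show j = 0 ∨ j = 1 ∨ j = 2 by omega) with rfl | rfl | rfl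
    · exact hA
    · exact hB
    · exact hC
  · rw [← hφr, range_three hF (φ := φ), hφ.rangeA, hφ.rangeB, ← hA, ← hB, range_three hF (φ := g'.comp lo3)]
    congr 1 <;> congr 1
    · exact MonoidHom.ext fun x => congrArg g' (lo3_lo x)
    · exact MonoidHom.ext fun x => congrArg g' (lo3_hi x)
  · rw [← hψr, range_three hF (φ := ψ), hψ.rangeA, hψ.rangeB, ← hB, ← hC, range_three hF (φ := g'.comp hi3)]
    congr 1 <;> congr 1
    · exact MonoidHom.ext fun x => congrArg g' (hi3_lo x)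
    · exact MonoidHom.ext fun x => congrArg g' (hi3_hi x)

/-- Recognition from a weak Phan system over nine elements. -/
theorem exists_surjective_three (n : ℕ) (hn : 4 ≤ n)
    (U : Fin n → Subgroup G) (e : ∀ i, ↥(SU 2 F 3) ≃* ↥(U i)) (V : Fin n → Fin n → Subgroup G)
    (h1 : ∀ i j : Fin n, (i : ℕ) + 2 ≤ j → ∀ x ∈ U i, ∀ y ∈ U j, x * y = y * x)
    (h2 : ∀ i j : Fin n, (i : ℕ) + 1 = j → IsStandardUnitaryPair (V i j) (U i) (U j) F 3)
    (hgen : (⨆ i, U i) ⊔ (⨆ (i : Fin n) (j : Fin n) (_ : (i : ℕ) + 1 = j), V i j) = ⊤)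
    (h4 : ∀ i j k : Fin n, (i : ℕ) + 1 = j → (j : ℕ) + 1 = k →
      ∃ g : ↥(SU 4 F 3) →* ↥(V i j ⊔ V j k), Function.Surjective g) :
    ∃ f : ↥(SU (n + 1) F 3) →* G, Function.Surjective f := by
  classical
  let U' : ℕ → Subgroup G := fun i => if h : i < n then U ⟨i, h⟩ else ⊥
  let V' : ℕ → Subgroup G := fun i => if h : i + 1 < n then V ⟨i, by omega⟩ ⟨i + 1, h⟩ else ⊥
  have hU : ∀ i : Fin n, U' (i : ℕ) = U i := fun i => dif_pos i.2
  have hV : ∀ i j : Fin n, (i : ℕ) + 1 = j → V' (i : ℕ) = V i j := fun i j hij => by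
    have h : (i : ℕ) + 1 < n := hij ▸ j.2
    show (if h : (i : ℕ) + 1 < n then V ⟨i, by omega⟩ ⟨i + 1, h⟩ else ⊥) = _
    rw [dif_pos h]
    congr 1
    exact Fin.ext hij
  have hs : ∀ a, a + 1 < n → ∃ φ : ↥(SU 3 F 3) →* G, Std φ (U' a) (U' (a + 1)) ∧ φ.range = V' a := by
    intro a ha
    obtain ⟨φ, hφ, hr⟩ := exists_std hF (h2 ⟨a, by omega⟩ ⟨a + 1, ha⟩ rfl)
    refine ⟨φ, ?_, hr.trans (hV ⟨a, by omega⟩ ⟨a + 1, ha⟩ rfl).symm⟩
    rw [← hU, ← hU] at hφ
    exact hφ
  have cAA : ∀ a b, a + 2 ≤ b → b < n → ∀ x ∈ U' a, ∀ y ∈ U' b, x * y = y * x := fun a b hab hb x hx y hy =>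
    h1 ⟨a, by omega⟩ ⟨b, hb⟩ hab x (by rwa [← hU]) y (by rwa [← hU])
  have vgen : ∀ a, a + 1 < n → V' a ≤ U' a ⊔ U' (a + 1) := fun a ha => by
    obtain ⟨φ, hφ, hr⟩ := hs a ha
    rw [← hr, range_three hF, hφ.rangeA, hφ.rangeB]
  have cAV : ∀ a b, a + 2 ≤ b → b + 1 < n → ∀ x ∈ U' a, ∀ y ∈ V' b, x * y = y * x := fun a b hab hb x hx => by
    have hle : U' b ⊔ U' (b + 1) ≤ Subgroup.centralizer {x} := sup_le
      (fun y hy => Subgroup.mem_centralizer_singleton_iff.2 (cAA a b hab (by omega) x hx y hy).symm)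
      (fun y hy => Subgroup.mem_centralizer_singleton_iff.2 (cAA a (b + 1) (by omega) hb x hx y hy).symm)
    exact fun y hy => (Subgroup.mem_centralizer_singleton_iff.1 (hle (vgen b hb hy))).symm
  have cVA : ∀ a b, a + 3 ≤ b → b < n → ∀ x ∈ V' a, ∀ y ∈ U' b, x * y = y * x := fun a b hab hb x hx y hy => by
    have hle : U' a ⊔ U' (a + 1) ≤ Subgroup.centralizer {y} := sup_le
      (fun x hx => Subgroup.mem_centralizer_singleton_iff.2 (cAA a b (by omega) hb x hx y hy))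
      (fun x hx => Subgroup.mem_centralizer_singleton_iff.2 (cAA (a + 1) b (by omega) hb x hx y hy))
    exact Subgroup.mem_centralizer_singleton_iff.1 (hle (vgen a (by omega) hx))
  have cVV : ∀ a b, a + 3 ≤ b → b + 1 < n → ∀ x ∈ V' a, ∀ y ∈ V' b, x * y = y * x := fun a b hab hb x hx => by
    have hle : U' b ⊔ U' (b + 1) ≤ Subgroup.centralizer {x} := sup_le
      (fun y hy => Subgroup.mem_centralizer_singleton_iff.2 (cVA a b hab (by omega) x hx y hy).symm)
      (fun y hy => Subgroup.mem_centralizer_singleton_iff.2 (cVA a (b + 1) (by omega) hb x hx y hy).symm)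
    exact fun y hy => (Subgroup.mem_centralizer_singleton_iff.1 (hle (vgen b hb hy))).symm
  refine exists_surjective4 hF (rigid_three hF) n hn U V U' V' hU hV (fun a ha => ?_) hgen cAA cAV cVA cVV
  refine std4_three hF ((e ⟨a, by omega⟩).trans (MulEquiv.subgroupCongr (hU _).symm)) (hs a (by omega))
    (hs (a + 1) (by omega)) (cAA a (a + 2) le_rfl (by omega)) ?_
  have e1 := hV ⟨a, by omega⟩ ⟨a + 1, by omega⟩ rfl
  have e2 := hV ⟨a + 1, by omega⟩ ⟨a + 2, by omega⟩ rfl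
  dsimp only at e1 e2
  rw [e1, e2]
  exact h4 _ _ _ rfl rfl

end Cfsg.Agent.H78.Phan
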